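import Cfsg.Agent.Core.PiSeparable
import Cfsg.Agent.FGS4.SingularGraph.Translate
import Mathlib.GroupTheory.SchurZassenhaus

/-! # `{p, q}`-subgroups of `p`-solvable groups -/

set_option linter.style.haveILetI false

namespace Cfsg.Agent.FGS4.AlperinAutomizer

open Subgroup

universe u

variable {p q : ℕ} [hp : Fact p.Prime] [hq : Fact q.Prime]

/-- All prime divisors among `p`, `q`. -/
def TwoPrime (p q n : ℕ) : Prop := ∀ t : ℕ, t.Prime → t ∣ n → t = p ∨ t = q

theorem TwoPrime.of_dvd {m n : ℕ} (h : TwoPrime p q n) (hm : m ∣ n) : TwoPrime p q m :=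
  fun t ht htd => h t ht (htd.trans hm)

theorem TwoPrime.mul {m n : ℕ} (h : TwoPrime p q m) (h' : TwoPrime p q n) : TwoPrime p q (m * n) :=
  fun t ht htd => (ht.dvd_mul.1 htd).elim (h t ht) (h' t ht)

theorem twoPrime_pow_left (k : ℕ) : TwoPrime p q (p ^ k) := fun _ ht h =>
  Or.inl ((Nat.prime_dvd_prime_iff_eq ht hp.out).1 (ht.dvd_of_dvd_pow h))

theorem twoPrime_pow_right (k : ℕ) : TwoPrime p q (q ^ k) := fun _ ht h =>
  Or.inr ((Nat.prime_dvd_prime_iff_eq ht hq.out).1 (ht.dvd_of_dvd_pow h))

theorem card_comap_mk {G : Type u} [Group G] [Finite G] (N : Subgroup G) [N.Normal] (L : Subgroup (G ⧸ N)) :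
    Nat.card (L.comap (QuotientGroup.mk' N)) = Nat.card N * Nat.card L := by
  have h1 := (L.comap (QuotientGroup.mk' N)).card_mul_index
  rw [index_comap_of_surjective _ (QuotientGroup.mk'_surjective N), ← N.card_mul_index,
    Subgroup.index_eq_card N, ← L.card_mul_index, ← mul_assoc] at h1
  exact Nat.eq_of_mul_eq_mul_right (Nat.pos_of_ne_zero index_ne_zero_of_finite) h1

/-- What is wanted: a `{p,q}`-subgroup with a Sylow `p`-subgroup, not inside `C` mod `q`. -/
def Good (p q : ℕ) {A : Type u} [Group A] (C : Subgroup A) : Prop :=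
  ∃ L : Subgroup A, TwoPrime p q (Nat.card L) ∧ (∃ P : Sylow p A, (P : Subgroup A) ≤ L) ∧
    q ∣ C.relIndex L

theorem relIndex_dvd_of_le_normal {A : Type u} [Group A] {C K L : Subgroup A} [C.Normal] (h : K ≤ L) :
    C.relIndex K ∣ C.relIndex L :=
  Core.relIndex_dvd_of_le_right_of_normal h

theorem index_sup_dvd {A : Type u} [Group A] [Finite A] {C M : Subgroup A} [M.Normal]
    (hA : q ∣ C.index) (hM : ¬ q ∣ C.relIndex (C ⊔ M)) : q ∣ (C ⊔ M).index := by
  rw [← relIndex_mul_index (le_sup_left : C ≤ C ⊔ M)] at hA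
  exact (hq.out.dvd_mul.1 hA).resolve_left hM

theorem exists_good : ∀ (n : ℕ) (A : Type u) [Group A] [Finite A], Nat.card A = n →
    Cfsg.IsPSolvable p A → p ≠ q → ∀ (C : Subgroup A) [C.Normal], q ∣ C.index → Good p q C := by
  intro n
  induction n using Nat.strong_induction_on with
  | _ n ih =>
    intro A _ _ hn hs hpq C _ hC
    subst hn
    -- quotient step
    have step : ∀ M : Subgroup A, M.Normal → M ≠ ⊥ → TwoPrime p q (Nat.card M) →
        ¬ q ∣ C.relIndex M → Good p q C := by
      intro M hMn hMne hMtp hMC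
      haveI := hMn
      haveI : (C.map (QuotientGroup.mk' M)).Normal := Subgroup.Normal.map inferInstance _ (QuotientGroup.mk'_surjective M)
      have hlt : Nat.card (A ⧸ M) < Nat.card A := by
        rw [← M.index_eq_card]
        conv_rhs => rw [← M.index_mul_card]
        exact lt_mul_right (Nat.pos_of_ne_zero M.index_ne_zero_of_finite) (M.one_lt_card_iff_ne_bot.2 hMne)
      have hidx : q ∣ (C.map (QuotientGroup.mk' M)).index := by
        rw [index_map, MonoidHom.range_eq_top.2 (QuotientGroup.mk'_surjective M), index_top, mul_one,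
          QuotientGroup.ker_mk']
        exact index_sup_dvd hC (by rw [sup_comm, relIndex_sup_right]; exact hMC)
      obtain ⟨L', hL', ⟨P', hP'⟩, hqL⟩ := ih _ hlt (A ⧸ M) rfl (Core.isPSolvable_quotient hs M) hpq
        (C.map (QuotientGroup.mk' M)) hidx
      refine ⟨L'.comap (QuotientGroup.mk' M), ?_, ?_, ?_⟩
      · rw [card_comap_mk]; exact hMtp.mul hL'
      · obtain ⟨P, rfl⟩ := Sylow.mapSurjective_surjective (QuotientGroup.mk'_surjective M) p P'
        exact ⟨P, fun x hx => hP' (by rw [Sylow.coe_mapSurjective]; exact mem_map_of_mem _ hx)⟩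
      · rw [← map_comap_eq_self_of_surjective (QuotientGroup.mk'_surjective M) L', ← relIndex_comap,
          comap_map_eq, QuotientGroup.ker_mk'] at hqL
        exact hqL.trans (relIndex_dvd_of_le_left _ le_sup_left)
    -- passing to a subgroup
    have sub : ∀ B : Subgroup A, B ≠ ⊤ → ¬ p ∣ B.index → q ∣ C.relIndex B → Good p q C := by
      intro B hB hBp hBC
      have hlt : Nat.card B < Nat.card A :=
        lt_of_le_of_ne (Subgroup.card_le_card_group B) fun e => hB (Subgroup.eq_top_of_card_eq B e)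
      obtain ⟨L, hL, ⟨P, hP⟩, hqL⟩ := ih _ hlt B rfl (Core.isPSolvable_subgroup hs B) hpq
        (C.subgroupOf B) hBC
      refine ⟨L.map B.subtype, ?_, ?_, ?_⟩
      · rw [Subgroup.card_map_of_injective B.subtype_injective]; exact hL
      · have hc : Nat.card ((P : Subgroup B).map B.subtype) = p ^ (Nat.card A).factorization p := by
          rw [Subgroup.card_map_of_injective B.subtype_injective, ThreeSizes.sylow_card_eq P,
            ThreeSizes.fact_card_mul B p, Nat.factorization_eq_zero_of_not_dvd hBp, add_zero]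
        exact ⟨Sylow.ofCard _ hc, show (P : Subgroup B).map B.subtype ≤ _ from map_mono hP⟩
      · rwa [subgroupOf, relIndex_comap] at hqL
    -- a minimal step
    have hAne : (⊥ : Subgroup A) ≠ ⊤ := fun e => hq.out.one_lt.ne' (Nat.dvd_one.1 (hC.trans (by
      have := Subgroup.index_dvd_of_le (bot_le : ⊥ ≤ C)
      rwa [e, index_top] at this)))
    obtain ⟨M, hMn, hMlt, hM⟩ := Core.isPiSeparable_of_isPSolvable hs ⊥ inferInstance hAne
    haveI := hMn
    have hMne : M ≠ ⊥ := hMlt.ne'
    rw [relIndex_bot_left] at hM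
    rcases hM with hM | hM
    · obtain ⟨k, hk⟩ := (Core.isPiNat_singleton_iff hp.out Nat.card_pos.ne').1 hM
      refine step M hMn hMne (hk ▸ twoPrime_pow_left k) fun hd => hpq ?_
      have hd' := hd.trans (relIndex_dvd_card C M)
      rw [hk] at hd'
      exact ((Nat.prime_dvd_prime_iff_eq hq.out hp.out).1 (hq.out.dvd_of_dvd_pow hd')).symm
    have hMp : ¬ p ∣ Nat.card M := fun hd => (hM p hp.out hd) (Set.mem_singleton p)
    obtain ⟨Q⟩ := (inferInstance : Nonempty (Sylow q M))
    set Qg := (Q : Subgroup M).map M.subtype with hQg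
    set N0 := normalizer (Qg : Set A) with hN0
    have hNM : N0 ⊔ M = ⊤ := Sylow.normalizer_sup_eq_top Q
    have hN0p : ¬ p ∣ N0.index := fun hd => hMp (hd.trans (by
      have h1 := Core.card_sup_mul_card_inf N0 M
      rw [hNM, Subgroup.card_top, ← N0.card_mul_index, mul_assoc] at h1
      exact Dvd.intro _ (Nat.eq_of_mul_eq_mul_left Nat.card_pos h1)))
    have hQgM : Qg ≤ M := map_subtype_le _
    have hQgq : ∃ k, Nat.card Qg = q ^ k := IsPGroup.iff_card.1 (Q.isPGroup'.map _)
    by_cases hqM : q ∣ C.relIndex M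
    · obtain ⟨P, hP⟩ := SingularGraph.exists_sylow_le hN0p
      refine ⟨(P : Subgroup A) ⊔ Qg, ?_, ⟨P, le_sup_left⟩, ?_⟩
      · obtain ⟨j, hj⟩ := IsPGroup.iff_card.1 P.isPGroup'
        obtain ⟨k, hk⟩ := hQgq
        haveI : (Qg.subgroupOf N0).Normal := normal_in_normalizer
        have h1 := Core.card_sup_dvd_mul ((P : Subgroup A).subgroupOf N0) (Qg.subgroupOf N0)
        rw [← subgroupOf_sup hP le_normalizer,
          Nat.card_congr (subgroupOfEquivOfLe (sup_le hP le_normalizer)).toEquiv,
          Nat.card_congr (subgroupOfEquivOfLe hP).toEquiv,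
          Nat.card_congr (subgroupOfEquivOfLe (le_normalizer : Qg ≤ N0)).toEquiv, hj, hk] at h1
        exact ((twoPrime_pow_left j).mul (twoPrime_pow_right k)).of_dvd h1
      · refine dvd_trans ?_ (relIndex_dvd_of_le_normal (le_sup_right : Qg ≤ (P : Subgroup A) ⊔ Qg))
        have hnotle : ¬ Qg ≤ C := by
          intro hle
          have h1 : (Q : Subgroup M) ≤ C.subgroupOf M := fun x hx => hle (mem_map_of_mem _ hx)
          exact Q.not_dvd_index (hqM.trans (index_dvd_of_le h1))
        obtain ⟨k, hk⟩ := hQgq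
        obtain ⟨j, -, hj⟩ := (Nat.dvd_prime_pow hq.out).1 (hk ▸ relIndex_dvd_card C Qg)
        rcases Nat.eq_zero_or_pos j with rfl | hj0
        · exact absurd (relIndex_eq_one.1 hj) hnotle
        · rw [hj]; exact dvd_pow_self q hj0.ne'
    have hCM : q ∣ (C ⊔ M).index :=
      index_sup_dvd hC (by rw [sup_comm, relIndex_sup_right]; exact hqM)
    have htopM : ∀ B : Subgroup A, B ⊔ M = ⊤ → q ∣ C.relIndex B := by
      intro B hB
      have h0 : B ⊔ (C ⊔ M) = ⊤ := top_le_iff.1 (hB.ge.trans (sup_le_sup_left le_sup_right B))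
      have h1 : (C ⊔ M).relIndex B = (C ⊔ M).index := by
        rw [← relIndex_sup_right (K := C ⊔ M) (H := B), h0, relIndex_top_right]
      exact (h1 ▸ hCM).trans (relIndex_dvd_of_le_left _ le_sup_left)
    by_cases hN0 : N0 = ⊤
    swap
    · exact sub N0 hN0 hN0p (htopM N0 hNM)
    haveI : Qg.Normal := normalizer_eq_top_iff.1 hN0
    by_cases hQ1 : Qg = ⊥
    swap
    · obtain ⟨k, hk⟩ := hQgq
      exact step Qg inferInstance hQ1 (hk ▸ twoPrime_pow_right k)
        fun hd => hqM (hd.trans (relIndex_dvd_of_le_normal hQgM))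
    have hqcard : ¬ q ∣ Nat.card M := by
      have h1 : (Q : Subgroup M) = ⊥ := (map_eq_bot_iff_of_injective _ M.subtype_injective).1 hQ1
      have := Q.not_dvd_index
      rwa [h1, index_bot] at this
    haveI : (C.map (QuotientGroup.mk' M)).Normal := Subgroup.Normal.map inferInstance _ (QuotientGroup.mk'_surjective M)
    have hlt : Nat.card (A ⧸ M) < Nat.card A := by
      rw [← M.index_eq_card]
      conv_rhs => rw [← M.index_mul_card]
      exact lt_mul_right (Nat.pos_of_ne_zero M.index_ne_zero_of_finite) (M.one_lt_card_iff_ne_bot.2 hMne)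
    have hidx : q ∣ (C.map (QuotientGroup.mk' M)).index := by
      rw [index_map, MonoidHom.range_eq_top.2 (QuotientGroup.mk'_surjective M), index_top, mul_one,
        QuotientGroup.ker_mk']
      exact hCM
    obtain ⟨L', hL', ⟨P', hP'⟩, hqL⟩ := ih _ hlt (A ⧸ M) rfl (Core.isPSolvable_quotient hs M) hpq
      (C.map (QuotientGroup.mk' M)) hidx
    set B := L'.comap (QuotientGroup.mk' M) with hB
    have hBp : ¬ p ∣ B.index := by
      rw [hB, index_comap_of_surjective _ (QuotientGroup.mk'_surjective M)]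
      exact fun hd => P'.not_dvd_index (hd.trans (index_dvd_of_le hP'))
    have hBC : q ∣ C.relIndex B := by
      rw [← map_comap_eq_self_of_surjective (QuotientGroup.mk'_surjective M) L', ← relIndex_comap,
        comap_map_eq, QuotientGroup.ker_mk'] at hqL
      exact hqL.trans (relIndex_dvd_of_le_left _ le_sup_left)
    by_cases hBtop : B = ⊤
    swap
    · exact sub B hBtop hBp hBC
    have hidxM : TwoPrime p q M.index := by
      have h1 : L' = ⊤ := by
        rw [← map_comap_eq_self_of_surjective (QuotientGroup.mk'_surjective M) L', ← hB, hBtop,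
          ← MonoidHom.range_eq_map, MonoidHom.range_eq_top.2 (QuotientGroup.mk'_surjective M)]
      rw [h1, Subgroup.card_top] at hL'
      rwa [M.index_eq_card]
    obtain ⟨L, hL⟩ := Subgroup.exists_right_complement'_of_coprime (N := M)
      (Nat.coprime_of_dvd fun t ht h1 h2 => (hidxM t ht h2).elim (fun e => hMp (e ▸ h1))
        (fun e => hqcard (e ▸ h1)))
    have hLcard : Nat.card L = M.index := hL.symm.index_eq_card.symm
    refine ⟨L, hLcard ▸ hidxM, SingularGraph.exists_sylow_le (p := p) ?_,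
      htopM L (by rw [sup_comm]; exact hL.sup_eq_top)⟩
    rw [hL.index_eq_card]; exact hMp

end Cfsg.Agent.FGS4.AlperinAutomizer
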